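import Cfsg.Agent.H865.L5.Base

/-!
# Transport from `GT k` to `E₈(3)` (helper887, S5923 / S5924, piece A8)

* `finrank_fix` : base change for common fixed spaces of families of matrices;
* `exists_conj` : `z⁻¹ E₈(3) z = GT k`; `exists_equiv`; `transport`.
-/

set_option autoImplicit false
set_option linter.unusedSectionVars false

namespace Cfsg.Agent.H887.L5

open CoxeterSystem Subgroup Cfsg Cfsg.Lie Cfsg.Lie.ChevalleyDatum
open Cfsg.Agent.ChevalleyStructure Cfsg.Agent.ChevalleyStructure.Elts Cfsg.Agent.ChevalleyStructure.CoxeterGeom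
  Cfsg.Agent.ChevalleyStructure.CoxeterGeomTypes Cfsg.Agent.ChevalleyStructure.NPerm
open Cfsg.Agent.Tits.Roots Cfsg.Agent.Tits.Core Cfsg.Agent.Nodes Cfsg.Agent.Nodes.SubComb Cfsg.Agent.Nodes.Reps
  Cfsg.Agent.Nodes.BNOf Cfsg.Agent.Nodes.RGDChev Cfsg.Agent.Nodes.Bruhat Cfsg.Agent.Nodes.Coroot
open Cfsg.Agent.KFacts.RgdField Cfsg.Agent.KFacts.RgdChevCoord Cfsg.Agent.BpExc.TorCent Cfsg.Agent.BpExc.TorChev
open Cfsg.Agent.GpExc.Field Cfsg.Agent.BpExc.Tow Cfsg.Agent.BpExc.TowChev Cfsg.Agent.BpExc.Fr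
  Cfsg.Agent.BpExc.LangFr Cfsg.Agent.BpExc.FamField Cfsg.Agent.BpExc.FamInst Cfsg.Agent.H129.TorusChar
  Cfsg.Agent.H795.LangT Cfsg.Agent.BpExc.FamExt Cfsg.Agent.BpExc.FamUntw Cfsg.Agent.H378.TorDual Cfsg.Agent.H378.TorChar
  Cfsg.Agent.H378.TorFin Cfsg.Agent.H378.RankOne Cfsg.Agent.H378.RootTor Cfsg.Agent.H865.EE Cfsg.Agent.H865.L5

attribute [local irreducible] w8

/-! ### base change of common fixed spaces -/

section Fix

/-- the common fixed space of a family of matrices -/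
def cfix {K : Type*} [Field K] {n ι : Type*} [Fintype n] (A : ι → Matrix n n K) : Submodule K (n → K) where
  carrier := {v | ∀ i, (A i).mulVec v = v}
  zero_mem' := fun i => Matrix.mulVec_zero _
  add_mem' := fun {a b} ha hb i => by rw [Matrix.mulVec_add, ha i, hb i]
  smul_mem' := fun c a ha i => by rw [Matrix.mulVec_smul, ha i]

theorem mem_cfix {K : Type*} [Field K] {n ι : Type*} [Fintype n] {A : ι → Matrix n n K} {v : n → K} :
    v ∈ cfix A ↔ ∀ i, (A i).mulVec v = v := Iff.rfl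

/-- **base change for the common fixed space** -/
theorem finrank_fix {F K : Type*} [Field F] [Field K] (f : F →+* K) {n ι : Type*} [Fintype n]
    (A : ι → Matrix n n F) :
    Module.finrank K (cfix fun i => (A i).map f) = Module.finrank F (cfix A) := by
  classical
  let _ : Algebra F K := f.toAlgebra
  have hsm : ∀ (a : F) (x : K), a • x = f a * x := fun a x => rfl
  let b := Module.Basis.ofVectorSpace F K
  let co : Module.Basis.ofVectorSpaceIndex F K → (n → K) → (n → F) := fun j v a => b.repr (v a) j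
  have hco : ∀ j (i : ι) (v : n → K), co j (((A i).map f).mulVec v) = (A i).mulVec (co j v) := by
    intro j i v
    funext a
    show b.repr (∑ c, f (A i a c) * v c) j = ∑ c, A i a c * b.repr (v c) j
    have h1 : (∑ c, f (A i a c) * v c) = ∑ c, A i a c • v c := rfl
    rw [h1, map_sum, Finsupp.finsetSum_apply]
    refine Finset.sum_congr rfl fun c _ => ?_
    rw [map_smul]
    rfl
  have hco1 : ∀ j (v : n → K), v ∈ cfix (fun i => (A i).map f) → co j v ∈ cfix A := fun j v hv i => by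
    rw [← hco, hv i]
  set d := Module.finrank F (cfix A) with hd
  let e : Module.Basis (Fin d) F (cfix A) := Module.finBasis F (cfix A)
  have hw : ∀ i : Fin d, (fun a => f ((e i : n → F) a)) ∈ cfix (fun i => (A i).map f) := by
    intro i j
    funext a
    show ∑ c, f (A j a c) * f ((e i : n → F) c) = f ((e i : n → F) a)
    rw [← congrFun ((e i).2 j) a]
    show _ = f (∑ c, A j a c * (e i : n → F) c)
    rw [map_sum]
    exact Finset.sum_congr rfl fun c _ => (map_mul f _ _).symm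
  let Φ : (Fin d → K) →ₗ[K] (cfix fun i => (A i).map f) :=
    { toFun := fun c => ∑ i, c i • ⟨_, hw i⟩
      map_add' := fun x y => by
        rw [← Finset.sum_add_distrib]
        exact Finset.sum_congr rfl fun i _ => by rw [Pi.add_apply, add_smul]
      map_smul' := fun c x => by
        rw [RingHom.id_apply, Finset.smul_sum]
        exact Finset.sum_congr rfl fun i _ => by rw [Pi.smul_apply, smul_eq_mul, mul_smul] }
  have hΦ : ∀ c a, ((Φ c : cfix fun i => (A i).map f) : n → K) a = ∑ i, c i * f ((e i : n → F) a) := by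
    intro c a
    show ((∑ i, c i • (⟨_, hw i⟩ : cfix fun i => (A i).map f) : cfix fun i => (A i).map f) : n → K) a = _
    rw [Submodule.coe_sum, Finset.sum_apply]
    rfl
  have hinj : Function.Injective Φ := by
    rw [← LinearMap.ker_eq_bot, LinearMap.ker_eq_bot']
    intro c hc
    have h1 : ∀ j, ∑ i, (b.repr (c i) j) • (e i) = 0 := by
      intro j
      apply Subtype.ext
      funext a
      rw [Submodule.coe_sum, Finset.sum_apply]
      have h2 := hΦ c a
      rw [hc] at h2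
      have h3 : b.repr _ j = b.repr _ j := congrArg (fun x => b.repr x j) h2
      rw [map_sum, Finsupp.finsetSum_apply] at h3
      have h4 : ∀ i, b.repr (c i * f ((e i : n → F) a)) j = b.repr (c i) j * (e i : n → F) a := by
        intro i
        have : c i * f ((e i : n → F) a) = (e i : n → F) a • c i := by rw [hsm, mul_comm]
        rw [this, map_smul, Finsupp.smul_apply, smul_eq_mul, mul_comm]
      rw [Finset.sum_congr rfl fun i _ => h4 i] at h3
      have h5 : b.repr (((0 : cfix fun i => (A i).map f) : n → K) a) j = 0 := by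
        show b.repr (0 : K) j = 0
        rw [map_zero]
        rfl
      rw [h5] at h3
      exact h3.symm
    have h6 : ∀ j i, b.repr (c i) j = 0 := fun j i =>
      Fintype.linearIndependent_iff.1 e.linearIndependent (fun i => b.repr (c i) j) (h1 j) i
    funext i
    apply b.repr.injective
    rw [Pi.zero_apply, map_zero]
    exact Finsupp.ext fun j => h6 j i
  have hsurj : Function.Surjective Φ := by
    rintro ⟨v, hv⟩
    let J : Finset (Module.Basis.ofVectorSpaceIndex F K) := Finset.univ.biUnion fun a => (b.repr (v a)).support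
    refine ⟨fun i => ∑ j ∈ J, e.repr ⟨co j v, hco1 j v hv⟩ i • b j, ?_⟩
    apply Subtype.ext
    funext a
    rw [hΦ]
    show _ = v a
    have h1 : ∀ j, ∑ i, e.repr ⟨co j v, hco1 j v hv⟩ i * (e i : n → F) a = b.repr (v a) j := by
      intro j
      have h2 : ((_ : cfix A) : n → F) a = _ :=
        congrArg (fun x : cfix A => (x : n → F) a) (e.sum_repr ⟨co j v, hco1 j v hv⟩)
      rw [Submodule.coe_sum, Finset.sum_apply] at h2
      exact h2
    have h3 : ∀ i, (∑ j ∈ J, e.repr ⟨co j v, hco1 j v hv⟩ i • b j) * f ((e i : n → F) a) =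
        ∑ j ∈ J, (e.repr ⟨co j v, hco1 j v hv⟩ i * (e i : n → F) a) • b j := by
      intro i
      rw [Finset.sum_mul]
      refine Finset.sum_congr rfl fun j _ => ?_
      rw [hsm, hsm, map_mul]
      ring
    rw [Finset.sum_congr rfl fun i _ => h3 i, Finset.sum_comm]
    have h4 : ∀ j ∈ J, ∑ i, (e.repr ⟨co j v, hco1 j v hv⟩ i * (e i : n → F) a) • b j = b.repr (v a) j • b j := by
      intro j _
      rw [← Finset.sum_smul, h1]
    rw [Finset.sum_congr rfl h4]
    conv_rhs => rw [← b.linearCombination_repr (v a), Finsupp.linearCombination_apply]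
    symm
    apply Finsupp.sum_of_support_subset
    · exact Finset.subset_biUnion_of_mem (fun a => (b.repr (v a)).support) (Finset.mem_univ a)
    · intro i _
      exact zero_smul _ _
  have E := LinearEquiv.ofBijective Φ ⟨hinj, hsurj⟩
  rw [← E.finrank_eq, Module.finrank_fin_fun]

end Fix

/-! ### `GT k` is `E₈(3)` -/

section Grp

variable (k : Type) [Field k] [CharP k 3]

/-- the embedding of the prime field -/
noncomputable def f3 : ZMod 3 →+* k := ZMod.castHom (dvd_refl 3) k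

/-- the embedding of `E₈(3)` -/
noncomputable def e3 : G3 →* ↥(chevE8.group k) := emb tp8.inList (f3 k)

theorem e3_injective : Function.Injective (e3 k) := emb_injective tp8.inList (f3 k)

theorem coe_e3 (x : G3) : ((e3 k x : GL chevE8.Idx k) : Matrix chevE8.Idx chevE8.Idx k) =
    ((x : GL chevE8.Idx (ZMod 3)) : Matrix chevE8.Idx chevE8.Idx (ZMod 3)).map (f3 k) := by
  rw [e3, coe_emb, coe_glMap]

/-- the embedding of the vectors -/
noncomputable def ve (v : chevE8.Idx → ZMod 3) : chevE8.Idx → k := fun a => f3 k (v a)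

theorem ve_injective : Function.Injective (ve k) := fun _ _ h =>
  funext fun a => (f3 k).injective (congrFun h a)

theorem ac_e3 (x : G3) (v : chevE8.Idx → ZMod 3) : ac (e3 k x) (ve k v) = ve k (ac x v) := by
  funext a
  show Matrix.mulVec ((e3 k x : GL chevE8.Idx k) : Matrix chevE8.Idx chevE8.Idx k) (ve k v) a = _
  rw [coe_e3]
  show ∑ c : chevE8.Idx, f3 k (((x : GL chevE8.Idx (ZMod 3)) : Matrix chevE8.Idx chevE8.Idx (ZMod 3)) a c) * f3 k (v c) =
    f3 k (∑ c : chevE8.Idx, ((x : GL chevE8.Idx (ZMod 3)) : Matrix chevE8.Idx chevE8.Idx (ZMod 3)) a c * v c)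
  rw [map_sum]
  exact Finset.sum_congr rfl fun c _ => (map_mul _ _ _).symm

theorem ve_neg (v : chevE8.Idx → ZMod 3) : ve k (-v) = -ve k v := funext fun a => map_neg (f3 k) (v a)

theorem ve_zero : ve k 0 = 0 := funext fun _ => map_zero (f3 k)

variable [IsAlgClosed k] [PerfectRing k 3]

/-- **`GT k` is conjugate to `E₈(3)`** -/
theorem exists_conj : ∃ z : ↥(chevE8.group k), (∀ x : G3, z⁻¹ * e3 k x * z ∈ GT k) ∧
    ∀ y ∈ GT k, ∃ x : G3, y = z⁻¹ * e3 k x * z := by
  obtain ⟨z, hz⟩ := lang' tp8 3 one_pos (n0 k)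
  have hz' : phi chevE8 k 3 1 z = z * n0 k := by rw [← hz]; group
  have hcard : Nat.card (ZMod 3) = 3 ^ 1 := by simp
  refine ⟨z, fun x => ?_, fun y hy => ?_⟩
  · show tau chevE8 k 3 1 (n0 k) (z⁻¹ * e3 k x * z) = z⁻¹ * e3 k x * z
    have h2 : phi chevE8 k 3 1 (e3 k x) = e3 k x := phi_emb' tp8 (f3 k) 3 hcard x
    rw [tau_apply, map_mul, map_mul, map_inv, hz', h2]
    group
  · obtain ⟨x, hx⟩ := fix_mem tp8 (f3 k) 3 hcard invC_E8 (fix_of_tau 3 hz hy)
    have hx' : e3 k x = z * y * z⁻¹ := hx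
    exact ⟨x, by rw [hx']; group⟩

/-- **`GT k` is isomorphic to `E₈(3)`** -/
theorem equiv_GT : Nonempty (G3 ≃* ↥(GT k)) := by
  obtain ⟨z, h1, h2⟩ := exists_conj k
  let φ : G3 →* ↥(GT k) := ((MulAut.conj z⁻¹).toMonoidHom.comp (e3 k)).codRestrict (GT k) fun x => by
    have := h1 x
    show z⁻¹ * e3 k x * z⁻¹⁻¹ ∈ GT k
    rwa [inv_inv]
  refine ⟨MulEquiv.ofBijective φ ⟨fun a b hab => ?_, fun y => ?_⟩⟩
  · exact e3_injective k ((MulAut.conj z⁻¹).injective (congrArg Subtype.val hab))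
  · obtain ⟨x, hx⟩ := h2 y.1 y.2
    refine ⟨x, Subtype.ext ?_⟩
    rw [hx]
    show z⁻¹ * e3 k x * z⁻¹⁻¹ = _
    rw [inv_inv]

variable {k}

/-- the homomorphism into the conjugate -/
noncomputable def cj (z : ↥(chevE8.group k)) (h : SL35 →* G3) : SL35 →* ↥(chevE8.group k) :=
  (MulAut.conj z⁻¹).toMonoidHom.comp ((e3 k).comp h)

theorem cj_apply (z : ↥(chevE8.group k)) (h : SL35 →* G3) (s : SL35) : cj z h s = z⁻¹ * e3 k (h s) * z := by
  show z⁻¹ * e3 k (h s) * z⁻¹⁻¹ = _
  rw [inv_inv]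

theorem ac_inv_ac (z : ↥(chevE8.group k)) (v : chevE8.Idx → k) : ac z⁻¹ (ac z v) = v := by
  rw [← ac_mul, inv_mul_cancel, ac_one]

theorem ac_ac_inv (z : ↥(chevE8.group k)) (v : chevE8.Idx → k) : ac z (ac z⁻¹ v) = v := by
  rw [← ac_mul, mul_inv_cancel, ac_one]

theorem mem_Fx_cj {z : ↥(chevE8.group k)} {h : SL35 →* G3} {S : Set SL35} {v : chevE8.Idx → k} :
    v ∈ Fx (cj z h '' S) ↔ ∀ s ∈ S, ac (e3 k (h s)) (ac z v) = ac z v := by
  rw [mem_Fx]
  constructor
  · intro h1 s hs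
    have h2 := h1 _ ⟨s, hs, rfl⟩
    rw [cj_apply, ac_mul, ac_mul] at h2
    have h3 := congrArg (ac z) h2
    rwa [ac_ac_inv] at h3
  · rintro h1 _ ⟨s, hs, rfl⟩
    rw [cj_apply, ac_mul, ac_mul, h1 s hs, ac_inv_ac]

theorem finrank_Fx_cj (z : ↥(chevE8.group k)) (h : SL35 →* G3) (S : Set SL35) :
    Module.finrank k (Fx (cj z h '' S)) = Module.finrank (ZMod 3) (Fx (h '' S)) := by
  have h1 := finrank_fix (f3 k)
    (fun s : S => ((h s.1 : GL chevE8.Idx (ZMod 3)) : Matrix chevE8.Idx chevE8.Idx (ZMod 3)))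
  have h2 : cfix (fun s : S => ((h s.1 : GL chevE8.Idx (ZMod 3)) : Matrix chevE8.Idx chevE8.Idx (ZMod 3))) =
      Fx (h '' S) := by
    ext v
    rw [mem_cfix, mem_Fx]
    constructor
    · rintro h3 _ ⟨s, hs, rfl⟩
      exact h3 ⟨s, hs⟩
    · intro h3 s
      exact h3 _ ⟨s.1, s.2, rfl⟩
  rw [← h2, ← h1]
  let A : (chevE8.Idx → k) ≃ₗ[k] (chevE8.Idx → k) := LinearEquiv.ofLinearMap (ac z) (ac z⁻¹)
    (LinearMap.ext fun v => ac_ac_inv z v) (LinearMap.ext fun v => ac_inv_ac z v)
  rw [← LinearEquiv.finrank_map_eq A]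
  have h3 : (Fx (cj z h '' S)).map (A : (chevE8.Idx → k) →ₗ[k] (chevE8.Idx → k)) =
      cfix (fun s : S => ((h s.1 : GL chevE8.Idx (ZMod 3)) : Matrix chevE8.Idx chevE8.Idx (ZMod 3)).map (f3 k)) := by
    ext v
    rw [Submodule.mem_map, mem_cfix]
    constructor
    · rintro ⟨w, hw, rfl⟩ s
      have h4 := mem_Fx_cj.1 hw s.1 s.2
      rw [← coe_e3]
      exact h4
    · intro h4
      refine ⟨ac z⁻¹ v, mem_Fx_cj.2 fun s hs => ?_, ac_ac_inv z v⟩
      rw [ac_ac_inv]
      have h5 := h4 ⟨s, hs⟩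
      rw [← coe_e3] at h5
      exact h5
  rw [h3]

theorem mem_Fx_ve {z : ↥(chevE8.group k)} {h : SL35 →* G3} {S : Set SL35} {v : chevE8.Idx → ZMod 3}
    (hv : v ∈ Fx (h '' S)) : ac z⁻¹ (ve k v) ∈ Fx (cj z h '' S) := by
  rw [mem_Fx_cj]
  intro s hs
  rw [ac_ac_inv, ac_e3, (mem_Fx.1 hv) _ ⟨s, hs, rfl⟩]

/-- **Good homomorphisms come from good homomorphisms** -/
theorem back {z : ↥(chevE8.group k)} (hz : ∀ x : G3, z⁻¹ * e3 k x * z ∈ GT k) {h : SL35 →* G3}
    (hg : GoodIn (GT k) (cj z h)) : GoodIn ⊤ h where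
  dim := by rw [← finrank_Fx_cj z h VP, hg.dim]
  zz v hv := by
    have h1 := hg.zz _ (mem_Fx_ve (z := z) hv)
    rw [cj_apply, ac_mul, ac_mul, ac_mul, ac_mul, ac_ac_inv, ac_ac_inv, ac_e3, ac_e3, ← map_neg] at h1
    have h2 := congrArg (ac z) h1
    rw [ac_ac_inv, ac_ac_inv, ← ve_neg] at h2
    exact ve_injective k h2
  fixS v hv := by
    have h1 := hg.fixS _ (mem_Fx_ve (z := z) hv)
    have h2 := congrArg (ac z) h1
    rw [ac_ac_inv, map_zero, ← ve_zero k] at h2
    exact ve_injective k h2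
  centS g _ hc := by
    obtain ⟨s, hs, h1⟩ := hg.centS _ (hz g) fun s hs => by
      rw [cj_apply]
      have h2 : e3 k g * e3 k (h s) = e3 k (h s) * e3 k g := by rw [← map_mul, hc s hs, map_mul]
      calc z⁻¹ * e3 k g * z * (z⁻¹ * e3 k (h s) * z) = z⁻¹ * (e3 k g * e3 k (h s)) * z := by group
        _ = z⁻¹ * (e3 k (h s) * e3 k g) * z := by rw [h2]
        _ = _ := by group
    refine ⟨s, hs, e3_injective k ?_⟩
    rw [cj_apply] at h1
    exact mul_left_cancel (mul_right_cancel h1)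
  centV g _ g' _ hc hc' := by
    have key : ∀ g : G3, (∀ s ∈ VP, g * h s = h s * g) → ∀ s ∈ VP,
        z⁻¹ * e3 k g * z * cj z h s = cj z h s * (z⁻¹ * e3 k g * z) := by
      intro g hc s hs
      rw [cj_apply]
      have h2 : e3 k g * e3 k (h s) = e3 k (h s) * e3 k g := by rw [← map_mul, hc s hs, map_mul]
      calc z⁻¹ * e3 k g * z * (z⁻¹ * e3 k (h s) * z) = z⁻¹ * (e3 k g * e3 k (h s)) * z := by group
        _ = z⁻¹ * (e3 k (h s) * e3 k g) * z := by rw [h2]
        _ = _ := by group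
    have h1 := hg.centV _ (hz g) _ (hz g') (key g hc) (key g' hc')
    apply e3_injective k
    rw [map_mul, map_mul]
    have h2 : z⁻¹ * (e3 k g * e3 k g') * z = z⁻¹ * (e3 k g' * e3 k g) * z := by
      calc z⁻¹ * (e3 k g * e3 k g') * z = z⁻¹ * e3 k g * z * (z⁻¹ * e3 k g' * z) := by group
        _ = z⁻¹ * e3 k g' * z * (z⁻¹ * e3 k g * z) := h1
        _ = _ := by group
    exact mul_left_cancel (mul_right_cancel h2)

end Grp

/-- **A8, the isomorphism** -/
theorem exists_equiv : ∃ (k : Type) (_ : Field k) (_ : CharP k 3) (_ : IsAlgClosed k) (_ : PerfectRing k 3)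
    (_ : LocFin k), Nonempty (G3 ≃* ↥(GT k)) := by
  have hk : LocFin (AlgebraicClosure (ZMod 3)) := locFin_of_isAlgebraic 3 _
  have h1 : CharP (AlgebraicClosure (ZMod 3)) 3 := charP_of_injective_algebraMap
    (algebraMap (ZMod 3) (AlgebraicClosure (ZMod 3))).injective 3
  have h2 : PerfectRing (AlgebraicClosure (ZMod 3)) 3 := PerfectField.toPerfectRing 3
  exact ⟨AlgebraicClosure (ZMod 3), inferInstance, h1, inferInstance, h2, hk, equiv_GT _⟩

/-- **A8 : transport** -/
theorem transport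
    (key : ∀ (k : Type) [Field k] [CharP k 3] [IsAlgClosed k] [PerfectRing k 3] (_ : LocFin k)
      (f : SL35 →* ↥(chevE8.group k)), Function.Injective f → (∀ x, f x ∈ GT k) →
      GoodIn (GT k) f ∨ GoodIn (GT k) (f.comp io.toMonoidHom))
    (f : SL35 →* G3) (hf : Function.Injective f) : GoodIn ⊤ f ∨ GoodIn ⊤ (f.comp io.toMonoidHom) := by
  obtain ⟨k, _, _, _, _, hk, -⟩ := exists_equiv
  obtain ⟨z, hz, -⟩ := exists_conj k
  rcases key k hk (cj z f) (fun a b hab => hf (e3_injective k ((MulAut.conj z⁻¹).injective hab)))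
    (fun x => by rw [cj_apply]; exact hz _) with h | h
  · exact Or.inl (back hz h)
  · exact Or.inr (back hz (h := f.comp io.toMonoidHom) h)

end Cfsg.Agent.H887.L5
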